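import Mathlib
import Cfsg.Prelude.Def_Spor_He
import Cfsg.Agent.KFacts.He.Hyp
import Cfsg.Agent.SporadicRecognition.HeldCard
import Cfsg.Agent.H721.SR.Base

/-! `He` has a non-real element: `z * y` with `C(z) = 2^(1+6) : L3(2)` and `y` of order 7. -/

set_option autoImplicit false

namespace Cfsg.Agent.H291.SR.He

open Cfsg Cfsg.Agent.H721.SR Cfsg.Agent.SporadicRecognition.HeldModel

/-- lifting an element of odd order to an element of odd order -/
theorem exists_odd_lift {C K : Type*} [Group C] [Finite C] [Group K] (f : C →* K) (x : C)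
    (hx : Odd (orderOf (f x))) : ∃ y : C, Odd (orderOf y) ∧ f y = f x := by
  obtain ⟨k, m, hm, hkm⟩ := Nat.exists_eq_two_pow_mul_odd (n := orderOf x) (orderOf_pos x).ne'
  have hco : Nat.Coprime (2 ^ k) (orderOf (f x)) :=
    Nat.Coprime.pow_left k ((Nat.coprime_two_left).2 hx)
  obtain ⟨e, he1, he2⟩ := Nat.chineseRemainder hco 0 1
  refine ⟨x ^ e, ?_, ?_⟩
  · have h1 : orderOf (x ^ e) ∣ m := by
      apply orderOf_dvd_of_pow_eq_one
      rw [← pow_mul]
      apply orderOf_dvd_iff_pow_eq_one.1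
      rw [hkm]
      exact Nat.mul_dvd_mul_right ((Nat.modEq_zero_iff_dvd).1 he1) m
    exact Odd.of_dvd_nat hm h1
  · rw [map_pow]
    have h2 : f x ^ e = f x ^ 1 := (pow_eq_pow_iff_modEq).2 he2
    rw [h2, pow_one]

/-- an element of order 7 of `SL(3, 2)` -/
def M : L3 := ⟨!![0, 0, 1; 1, 0, 1; 0, 1, 0], by decide⟩

theorem M_pow : M ^ 7 = 1 := by
  apply Subtype.ext
  change (!![0, 0, 1; 1, 0, 1; 0, 1, 0] : Matrix (Fin 3) (Fin 3) (ZMod 2)) ^ 7 = 1
  decide +kernel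

theorem not_isConj_M : ¬ IsConj M M⁻¹ := by
  intro hc
  have hinv : M⁻¹ = M ^ 6 := inv_eq_of_mul_eq_one_left (by rw [← pow_succ]; exact M_pow)
  rw [hinv] at hc
  obtain ⟨t, ht⟩ := isConj_iff.1 hc
  have h1 : Matrix.trace ((t * M * t⁻¹ : L3) : Matrix (Fin 3) (Fin 3) (ZMod 2)) =
      Matrix.trace (M : Matrix (Fin 3) (Fin 3) (ZMod 2)) := by
    have h2 : ((t * M * t⁻¹ : L3) : Matrix (Fin 3) (Fin 3) (ZMod 2)) =
        (t : Matrix (Fin 3) (Fin 3) (ZMod 2)) * (M : Matrix (Fin 3) (Fin 3) (ZMod 2)) *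
          ((t⁻¹ : L3) : Matrix (Fin 3) (Fin 3) (ZMod 2)) := rfl
    have h3 : ((t⁻¹ : L3) : Matrix (Fin 3) (Fin 3) (ZMod 2)) * (t : Matrix (Fin 3) (Fin 3) (ZMod 2)) = 1 :=
      congrArg Subtype.val (inv_mul_cancel t)
    rw [h2, Matrix.trace_mul_comm, ← Matrix.mul_assoc, h3, Matrix.one_mul]
  rw [ht] at h1
  have h4 : ((M ^ 6 : L3) : Matrix (Fin 3) (Fin 3) (ZMod 2)) =
      (!![0, 0, 1; 1, 0, 1; 0, 1, 0] : Matrix (Fin 3) (Fin 3) (ZMod 2)) ^ 6 := rfl
  rw [h4] at h1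
  revert h1
  change ¬ (Matrix.trace ((!![0, 0, 1; 1, 0, 1; 0, 1, 0] : Matrix (Fin 3) (Fin 3) (ZMod 2)) ^ 6) =
    Matrix.trace (!![0, 0, 1; 1, 0, 1; 0, 1, 0] : Matrix (Fin 3) (Fin 3) (ZMod 2)))
  decide +kernel

theorem toL3_zC : toL3 zC = 1 := by
  apply Subtype.ext
  show mid (zz : Matrix (Fin 5) (Fin 5) (ZMod 2)) = 1
  rw [coe_zz]
  decide +kernel

/-- a group with an involution centraliser `2^(1+6) : L3(2)` has a non-real element -/
theorem nrel_of_hyp {G : Type*} [Group G] {z : G} {ι : CC →* G} (h : Hyp z ι) : NRel G := by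
  have hfin : Finite CC := Nat.finite_of_card_ne_zero (by rw [card_CC]; norm_num)
  let e1 : CC ≃* ι.range := MonoidHom.ofInjective h.inj
  let e2 : ι.range ≃* ↥(Subgroup.centralizer ({z} : Set G)) := MulEquiv.subgroupCongr h.range
  have hfC : Finite ↥(Subgroup.centralizer ({z} : Set G)) := Finite.of_equiv _ (e1.trans e2).toEquiv
  let f : ↥(Subgroup.centralizer ({z} : Set G)) →* L3 := toL3.comp (e1.trans e2).symm.toMonoidHom
  have hf : Function.Surjective f := toL3_surjective.comp (e1.trans e2).symm.surjective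
  obtain ⟨x, hx⟩ := hf M
  obtain ⟨y, hy1, hy2⟩ := exists_odd_lift f x (by
    rw [hx]
    exact Odd.of_dvd_nat (by decide : Odd 7) (orderOf_dvd_of_pow_eq_one M_pow))
  have hval : ∀ hzc : z ∈ Subgroup.centralizer ({z} : Set G), (e1.trans e2).symm ⟨z, hzc⟩ = zC := by
    intro hzc
    rw [MulEquiv.symm_apply_eq]
    apply Subtype.ext
    exact h.map_zz.symm
  have hzz : z * z = 1 := by
    rw [← h.map_zz, ← map_mul]
    have : zC * zC = 1 := by
      apply Subtype.ext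
      apply Subtype.ext
      show (zz : Matrix (Fin 5) (Fin 5) (ZMod 2)) * (zz : Matrix (Fin 5) (Fin 5) (ZMod 2)) = 1
      rw [coe_zz]
      decide +kernel
    rw [this, map_one]
  refine nrel_of_centralizer_odd hzz f y hy1 ?_ (by rw [hy2, hx]; exact not_isConj_M)
  intro hzc
  show toL3 ((e1.trans e2).symm ⟨z, hzc⟩) = 1
  rw [hval, toL3_zC]

/-- **`He` has a non-real element.** -/
theorem nrel_he {G : Type*} [Group G] (h : Spor.IsoHe G) : NRel G := by
  obtain ⟨e⟩ := h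
  exact NRel.congr e.symm (nrel_of_hyp Cfsg.Agent.KFacts.He.Hyp.hyp)

end Cfsg.Agent.H291.SR.He
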