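import Cfsg.Agent.H721.SR.Base
import Cfsg.Agent.H713.Engine
import Cfsg.Agent.H180.KMathieu
import Cfsg.Agent.MTwelveType.SylowModel
import Cfsg.Agent.S5618
import Cfsg.Agent.S0370
import Cfsg.Agent.S0371
import Cfsg.Agent.SporadicA.MathieuRecog
import Cfsg.Agent.H994.TwoGen.M11
/-
TEAM SR (S4971), rows of the Mathieu groups: an element of order 11 (`M₁₁`, `M₁₂`, `M₂₂`) or 23 (`M₂₃`, `M₂₄`) is
self-centralising and not real.
-/
set_option autoImplicit false

namespace Cfsg.Agent.H291.SR.Mathieu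

open Cfsg Subgroup Cfsg.Agent.H721.SR
open scoped Pointwise

/-- **Self-centralising elements.** `G` acts faithfully on the invariant set `D`; `x` has one fixed point `q₀` and one
further orbit on `D`. -/
theorem mem_zpowers {G X : Type*} [Group G] [MulAction G X] {D : Set X} (hD : ∀ g : G, ∀ p ∈ D, g • p ∈ D)
    (hf : ∀ g : G, (∀ p ∈ D, g • p = p) → g = 1) {x : G} {q₀ p₀ : X} (hq₀ : q₀ ∈ D) (hp₀ : p₀ ∈ D)
    (hq : x • q₀ = q₀) (hp : p₀ ≠ q₀) (hfix : ∀ p ∈ D, x • p = p → p = q₀)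
    (horb : ∀ p ∈ D, p ≠ q₀ → ∃ k : ℕ, p = x ^ k • p₀) {c : G} (hc : c * x = x * c) : c ∈ zpowers x := by
  have h1 : c • q₀ = q₀ := by
    refine hfix _ (hD c _ hq₀) ?_
    rw [← mul_smul, ← hc, mul_smul, hq]
  have h2 : c • p₀ ≠ q₀ := fun h => hp (by
    have : c • p₀ = c • q₀ := by rw [h, h1]
    exact smul_left_cancel c this)
  obtain ⟨k, hk⟩ := horb _ (hD c _ hp₀) h2
  have hcc : Commute c x := hc
  have h3 : (x ^ k)⁻¹ * c = 1 := by
    apply hf
    intro p hpD
    by_cases hpq : p = q₀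
    · subst hpq
      rw [mul_smul, h1, inv_smul_eq_iff]
      have : ∀ n : ℕ, x ^ n • p = p := by
        intro n
        induction n with
        | zero => rw [pow_zero, one_smul]
        | succ n ih => rw [pow_succ, mul_smul, hq, ih]
      exact (this k).symm
    · obtain ⟨j, rfl⟩ := horb _ hpD hpq
      rw [← mul_smul]
      have h4 : (x ^ k)⁻¹ * c * x ^ j = x ^ j * ((x ^ k)⁻¹ * c) := by
        have e1 : Commute ((x ^ k)⁻¹ * c) (x ^ j) :=
          (((Commute.refl x).pow_pow k j).inv_left).mul_left (hcc.pow_right j)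
        exact e1.eq
      rw [h4, mul_smul, mul_smul, hk, inv_smul_smul]
  have h5 : c = x ^ k := by
    rw [inv_mul_eq_one] at h3
    exact h3.symm
  rw [h5]
  exact npow_mem_zpowers x k

theorem card_centralizer {G : Type*} [Group G] {x : G} (h : ∀ c : G, c * x = x * c → c ∈ zpowers x) :
    Nat.card (centralizer ({x} : Set G)) = orderOf x := by
  have : centralizer ({x} : Set G) = zpowers x := by
    apply le_antisymm
    · intro c hc
      exact h c (mem_centralizer_singleton_iff.1 hc)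
    · rw [zpowers_le]
      exact mem_centralizer_singleton_iff.2 rfl
  rw [this, Nat.card_zpowers]

theorem factorization_eq_one {n p : ℕ} (hp : p.Prime) (h1 : p ∣ n) (h2 : ¬ p ^ 2 ∣ n) (hn : n ≠ 0) :
    n.factorization p = 1 := by
  have e1 := (hp.dvd_iff_one_le_factorization hn).1 h1
  have e2 : ¬ 2 ≤ n.factorization p := fun h => h2 ((hp.pow_dvd_iff_le_factorization hn).2 h)
  omega

theorem nrel_of {G : Type*} [Group G] [Finite G] {p : ℕ} (hp : p.Prime) (hp2 : p ≠ 2) {x : G} (hx : orderOf x = p)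
    (h : ∀ c : G, c * x = x * c → c ∈ zpowers x) (h1 : ¬ p ^ 2 ∣ Nat.card G)
    (hodd : Odd ((Nat.card G / p) % p)) : NRel G := by
  have : Fact p.Prime := ⟨hp⟩
  refine ⟨x, Cfsg.Agent.H713.not_isConj_inv_of_odd (factorization_eq_one hp ?_ h1 Nat.card_pos.ne') hx ?_ hp2 hodd⟩
  · rw [← hx]
    exact orderOf_dvd_natCard x
  · rw [card_centralizer h, hx]

/-! ### the elements -/

/-- `x ↦ x + 1` -/
def T : Equiv.Perm GolayPt := Equiv.optionCongr (Equiv.addRight (1 : ZMod 23))

/-- `x ↦ 2 x` -/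
def M : Equiv.Perm GolayPt := Equiv.optionCongr (Units.mulLeft (ZMod.unitOfCoprime 2 (by decide)))

theorem T_mem : T ∈ M24 := Cfsg.Agent.S0370.result

theorem M_mem : M ∈ M24 := by
  refine Cfsg.Agent.S0371.result _ ⟨ZMod.unitOfCoprime 5 (by decide), ?_⟩
  decide

theorem T_pow : T ^ 23 = 1 := by
  apply Equiv.ext
  decide +kernel

theorem M_pow : M ^ 11 = 1 := by
  apply Equiv.ext
  decide +kernel

theorem T_ne : T ≠ 1 := fun h => absurd (congrArg (fun k : Equiv.Perm GolayPt => k (some 0)) h) (by decide +kernel)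

theorem M_ne : M ≠ 1 := fun h => absurd (congrArg (fun k : Equiv.Perm GolayPt => k (some 1)) h) (by decide +kernel)

theorem T_orb : ∀ p : GolayPt, p ≠ none → ∃ k : ℕ, p = (T ^ k) (some 0) := by
  have h : ∀ p : GolayPt, p ≠ none → ∃ k : Fin 23, p = (T ^ (k : ℕ)) (some 0) := by decide +kernel
  intro p hp
  obtain ⟨k, hk⟩ := h p hp
  exact ⟨k, hk⟩

theorem orderOf_sub {K : Subgroup (Equiv.Perm GolayPt)} {g : Equiv.Perm GolayPt} (hg : g ∈ K) {p : ℕ}
    (hp : p.Prime) (h : g ^ p = 1) (h1 : g ≠ 1) : orderOf (⟨g, hg⟩ : K) = p := by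
  have : Fact p.Prime := ⟨hp⟩
  rw [← Subgroup.orderOf_coe]
  exact orderOf_eq_prime h h1

/-- the 23-cycle in a subgroup -/
theorem cyc23 {K : Subgroup (Equiv.Perm GolayPt)} (hT : T ∈ K) (c : K) (hc : c * ⟨T, hT⟩ = ⟨T, hT⟩ * c) :
    c ∈ zpowers (⟨T, hT⟩ : K) := by
  refine mem_zpowers (X := GolayPt) (D := Set.univ) (fun _ _ _ => Set.mem_univ _) ?_ (q₀ := none) (p₀ := some 0)
    (Set.mem_univ _) (Set.mem_univ _) ?_ (by decide) ?_ ?_ hc
  · intro g hg
    apply Subtype.ext
    apply Equiv.ext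
    intro p
    exact hg p (Set.mem_univ _)
  · show T none = none
    decide +kernel
  · intro p _ hp
    have h : ∀ p : GolayPt, T p = p → p = none := by decide +kernel
    exact h p hp
  · intro p _ hp
    obtain ⟨k, hk⟩ := T_orb p hp
    exact ⟨k, hk⟩

theorem nrel_m24 {G : Type*} [Group G] (h : Spor.IsoM24 G) : NRel G := by
  obtain ⟨e⟩ := h
  refine NRel.congr e.symm ?_
  have hcard : Nat.card M24 = 244823040 := Cfsg.Agent.SporadicA.M24Trans.card_M24
  have : Finite M24 := Nat.finite_of_card_ne_zero (by rw [hcard]; norm_num)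
  refine nrel_of (p := 23) (by norm_num) (by norm_num) (orderOf_sub T_mem (by norm_num) T_pow T_ne) (cyc23 T_mem) ?_ ?_
  · rw [hcard]; norm_num
  · rw [hcard]; decide

theorem T_mem23 : T ∈ Spor.M23 := by
  refine Subgroup.mem_inf.2 ⟨T_mem, ?_⟩
  rw [MulAction.mem_stabilizer_iff]
  show T none = none
  decide +kernel

theorem nrel_m23 {G : Type*} [Group G] (h : Spor.IsoM23 G) : NRel G := by
  obtain ⟨e⟩ := h
  refine NRel.congr e.symm ?_
  have hcard : Nat.card Spor.M23 = 10200960 := Cfsg.Agent.SporadicA.MathieuRecog.card_M23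
  have : Finite Spor.M23 := Nat.finite_of_card_ne_zero (by rw [hcard]; norm_num)
  refine nrel_of (p := 23) (by norm_num) (by norm_num) (orderOf_sub T_mem23 (by norm_num) T_pow T_ne) (cyc23 T_mem23)
    ?_ ?_
  · rw [hcard]; norm_num
  · rw [hcard]; decide

theorem nrel_m22 {G : Type*} [Group G] (h : Spor.IsoM22 G) : NRel G := by
  obtain ⟨e⟩ := h
  exact NRel.congr e.symm ⟨_, Cfsg.Agent.H180.KMathieu.not_isConj_e11⟩

open Cfsg.Agent.SporadicStructure.M11InvPerms Cfsg.Agent.MTwelveType.SylowModel in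
theorem M_dd : ∀ p ∈ dd, M p ∈ dd := by decide +kernel

theorem M_mem12 : M ∈ Spor.M12 := MTwelveType.SylowModel.mem_M12 M_mem M_dd

theorem M_mem11 : M ∈ Spor.M11 := by
  refine Subgroup.mem_inf.2 ⟨M_mem12, ?_⟩
  rw [MulAction.mem_stabilizer_iff]
  show M (some 0) = some 0
  decide +kernel

/-- the element of order 11 in a subgroup of `M₁₂` -/
theorem cyc11 {K : Subgroup (Equiv.Perm GolayPt)} (hK : K ≤ Spor.M12) (hM : M ∈ K) (c : K)
    (hc : c * ⟨M, hM⟩ = ⟨M, hM⟩ * c) : c ∈ zpowers (⟨M, hM⟩ : K) := by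
  open Cfsg.Agent.SporadicStructure.M11InvPerms Cfsg.Agent.MTwelveType.SylowModel in
  refine mem_zpowers (X := GolayPt) (D := (dd : Set GolayPt)) ?_ ?_ (q₀ := some 0) (p₀ := some 1)
    ?_ ?_ ?_ (by decide) ?_ ?_ hc
  · intro g p hp
    have h1 := (Subgroup.mem_inf.1 (hK g.2)).2
    rw [MulAction.mem_stabilizer_iff, squareDodecad_eq] at h1
    have h2 : (g : Equiv.Perm GolayPt) • p ∈ (g : Equiv.Perm GolayPt) • dd := Finset.smul_mem_smul_finset hp
    rw [h1] at h2
    exact h2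
  · intro g hg
    have h1 := (Subgroup.mem_inf.1 (hK g.2)).2
    rw [MulAction.mem_stabilizer_iff, squareDodecad_eq] at h1
    have h2 := Cfsg.Agent.S5618.eq_one_of_fix_five dd_mem (s := dd) subset_rfl (by decide +kernel)
      (g := ⟨g, (Subgroup.mem_inf.1 (hK g.2)).1⟩) (by
        rw [MulAction.mem_stabilizer_iff]
        exact h1) (fun p hp => hg p hp)
    have h3 : ((⟨g, (Subgroup.mem_inf.1 (hK g.2)).1⟩ : M24) : Equiv.Perm GolayPt) = ((1 : M24) : Equiv.Perm GolayPt) :=
      congrArg Subtype.val h2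
    exact Subtype.ext h3
  · show (some 0 : GolayPt) ∈ dd
    decide +kernel
  · show (some 1 : GolayPt) ∈ dd
    decide +kernel
  · show M (some 0) = some 0
    decide +kernel
  · intro p hpD hp
    have h : ∀ p ∈ dd, M p = p → p = some 0 := by decide +kernel
    exact h p hpD hp
  · intro p hpD hp
    have h : ∀ p ∈ dd, p ≠ some 0 → ∃ k : Fin 11, p = (M ^ (k : ℕ)) (some 1) := by decide +kernel
    obtain ⟨k, hk⟩ := h p hpD hp
    exact ⟨k, hk⟩

theorem nrel_m12 {G : Type*} [Group G] (h : Spor.IsoM12 G) : NRel G := by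
  obtain ⟨e⟩ := h
  refine NRel.congr e.symm ?_
  have hcard : Nat.card Spor.M12 = 95040 := Cfsg.Agent.MTwelveType.SylowModel.card_M12
  have : Finite Spor.M12 := Nat.finite_of_card_ne_zero (by rw [hcard]; norm_num)
  refine nrel_of (p := 11) (by norm_num) (by norm_num) (orderOf_sub M_mem12 (by norm_num) M_pow M_ne)
    (cyc11 le_rfl M_mem12) ?_ ?_
  · rw [hcard]; norm_num
  · rw [hcard]; decide

theorem nrel_m11 {G : Type*} [Group G] (h : Spor.IsoM11 G) : NRel G := by
  obtain ⟨e⟩ := h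
  refine NRel.congr e.symm ?_
  have hcard : Nat.card Spor.M11 = 7920 := Cfsg.Agent.H994.TwoGen.M11.card_M11
  have : Finite Spor.M11 := Nat.finite_of_card_ne_zero (by rw [hcard]; norm_num)
  refine nrel_of (p := 11) (by norm_num) (by norm_num) (orderOf_sub M_mem11 (by norm_num) M_pow M_ne)
    (cyc11 inf_le_left M_mem11) ?_ ?_
  · rw [hcard]; norm_num
  · rw [hcard]; decide

end Cfsg.Agent.H291.SR.Mathieu
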