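import Mathlib
import Cfsg.Prelude.Def_Classical
import Cfsg.Prelude.Def_Spor_Suz
import Cfsg.Agent.LargeExtra.Cards
import Cfsg.Agent.LieClassical.SUBasic
import Cfsg.Agent.S0303
import Cfsg.Agent.S5389
import Cfsg.Agent.S1719
import Cfsg.Agent.H721.SR.Base

/-! `Suz` has a non-real element: `z * y` with `C(z) = 2^(1+6) . U4(2)` and `y` of order 3 whose image in `U4(2)`
is a transvection of `PSp4(3)`, that is, the class of `diag(w, w, w, 1)`. -/

set_option autoImplicit false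

namespace Cfsg.Agent.H291.SR.Suz

open Cfsg Cfsg.Agent.H721.SR Cfsg.Agent.LieClassical.SUBasic

universe u

/-- lifting an element of odd order to an element of odd order -/
theorem exists_odd_lift {C K : Type*} [Group C] [Finite C] [Group K] (f : C →* K) (x : C)
    (hx : Odd (orderOf (f x))) : ∃ y : C, Odd (orderOf y) ∧ f y = f x := by
  obtain ⟨k, m, hm, hkm⟩ := Nat.exists_eq_two_pow_mul_odd (n := orderOf x) (orderOf_pos x).ne'
  have hco : Nat.Coprime (2 ^ k) (orderOf (f x)) :=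
    Nat.Coprime.pow_left k ((Nat.coprime_two_left).2 hx)
  obtain ⟨e, he1, he2⟩ := Nat.chineseRemainder hco 0 1
  refine ⟨x ^ e, ?_, ?_⟩
  · have h1 : orderOf (x ^ e) ∣ m := by
      apply orderOf_dvd_of_pow_eq_one
      rw [← pow_mul]
      apply orderOf_dvd_iff_pow_eq_one.1
      rw [hkm]
      exact Nat.mul_dvd_mul_right ((Nat.modEq_zero_iff_dvd).1 he1) m
    exact Odd.of_dvd_nat hm h1
  · rw [map_pow]
    have h2 : f x ^ e = f x ^ 1 := (pow_eq_pow_iff_modEq).2 he2
    rw [h2, pow_one]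

section unitary

variable {F : Type*} [Field F] [Fintype F]

/-- the class of `diag(w, w, w, 1)` is not real in `PSU_4(2)` -/
theorem nreal_u4 (hF : Fintype.card F = 2 ^ 2) :
    ∃ g : PSU 4 F 2, g ^ 3 = 1 ∧ ¬ IsConj g g⁻¹ := by
  classical
  haveI : CharP F 2 := by
    obtain ⟨p, hp⟩ := CharP.exists F
    haveI := hp
    obtain ⟨n, hpp, hn⟩ := FiniteField.card F p
    rw [hF] at hn
    have h2 : p ∣ 2 ^ 2 := by rw [hn]; exact dvd_pow_self p n.ne_zero
    have h3 := (Nat.prime_dvd_prime_iff_eq hpp Nat.prime_two).1 (hpp.dvd_of_dvd_pow h2)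
    subst h3
    exact hp
  obtain ⟨w, hw0, hw1⟩ : ∃ w : F, w ≠ 0 ∧ w ≠ 1 := by
    by_contra hcon
    push Not at hcon
    have h1 : (Finset.univ : Finset F) ⊆ {0, 1} := by
      intro x _
      by_cases hx : x = 0
      · simp [hx]
      · simp [hcon x hx]
    have h2 := Finset.card_le_card h1
    rw [Finset.card_univ, hF] at h2
    have h3 := Finset.card_le_two (a := (0 : F)) (b := 1)
    omega
  have hw3 : w ^ 3 = 1 := by
    have := FiniteField.pow_card_sub_one_eq_one w hw0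
    rwa [hF] at this
  have hww : w ^ 2 + w + 1 = 0 := by
    have h1 : (w - 1) * (w ^ 2 + w + 1) = 0 := by
      have : (w - 1) * (w ^ 2 + w + 1) = w ^ 3 - 1 := by ring
      rw [this, hw3, sub_self]
    rcases mul_eq_zero.1 h1 with h | h
    · exact absurd (sub_eq_zero.1 h) hw1
    · exact h
  have h2' : (2 : F) = 0 := CharTwo.two_eq_zero
  set a : Fin 4 → F := ![w, w, w, 1] with ha
  have had : ∏ i, a i = 1 := by
    simp only [ha, Fin.prod_univ_four, Matrix.cons_val_zero, Matrix.cons_val_one, Matrix.cons_val]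
    rw [mul_one]
    calc w * w * w = w ^ 3 := by ring
      _ = 1 := hw3
  have han : ∀ i, a i ^ (2 + 1) = 1 := by
    intro i
    fin_cases i <;> simp [ha, hw3]
  set d : SU 4 F 2 := suDiag 2 a had han with hd
  have hd3 : d ^ 3 = 1 := by
    apply Subtype.ext
    apply Subtype.ext
    change ((Matrix.diagonal a) ^ 3 : Matrix (Fin 4) (Fin 4) F) = 1
    rw [Matrix.diagonal_pow]
    have : a ^ 3 = 1 := funext fun i => han i
    rw [this]
    exact Matrix.diagonal_one
  have hdinv : d⁻¹ = d ^ 2 := inv_eq_of_mul_eq_one_left (by rw [← pow_succ]; exact hd3)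
  refine ⟨(QuotientGroup.mk d : PSU 4 F 2), ?_, ?_⟩
  · rw [← QuotientGroup.mk_pow, hd3, QuotientGroup.mk_one]
  · intro hc
    obtain ⟨t, ht⟩ := isConj_iff.1 hc
    obtain ⟨t, rfl⟩ := QuotientGroup.mk_surjective t
    rw [← QuotientGroup.mk_inv, ← QuotientGroup.mk_inv, ← QuotientGroup.mk_mul, ← QuotientGroup.mk_mul,
      QuotientGroup.eq] at ht
    obtain ⟨c, hc4, hc3, hz⟩ := (mem_center_SU_iff (by simpa using hF) (by norm_num) _).1 ht
    have hc1 : c = 1 := by
      have : c ^ 4 = c ^ 3 * c := by ring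
      rw [this] at hc4
      have h3 : c ^ 3 = 1 := hc3
      rw [h3, one_mul] at hc4
      exact hc4
    subst hc1
    have hone : (suScalar 2 (1 : F) hc4 hc3 : SU 4 F 2) = 1 := by
      apply Subtype.ext
      apply Subtype.ext
      change (Matrix.diagonal fun _ => (1 : F)) = (1 : Matrix (Fin 4) (Fin 4) F)
      exact Matrix.diagonal_one
    rw [hone] at hz
    have hz2 : t * d * t⁻¹ = d⁻¹ := inv_mul_eq_one.1 hz
    rw [hdinv] at hz2
    have htr : Matrix.trace (((t * d * t⁻¹ : SU 4 F 2) : Matrix.SpecialLinearGroup (Fin 4) F) :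
        Matrix (Fin 4) (Fin 4) F) = Matrix.trace (Matrix.diagonal a) := by
      have h1 : (((t * d * t⁻¹ : SU 4 F 2) : Matrix.SpecialLinearGroup (Fin 4) F) :
          Matrix (Fin 4) (Fin 4) F) = ((t : Matrix.SpecialLinearGroup (Fin 4) F) : Matrix (Fin 4) (Fin 4) F) *
            Matrix.diagonal a * ((t⁻¹ : SU 4 F 2) : Matrix.SpecialLinearGroup (Fin 4) F).1 := rfl
      rw [h1, Matrix.trace_mul_comm, ← Matrix.mul_assoc]
      have h2 : ((t⁻¹ : SU 4 F 2) : Matrix.SpecialLinearGroup (Fin 4) F).1 *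
          ((t : Matrix.SpecialLinearGroup (Fin 4) F) : Matrix (Fin 4) (Fin 4) F) = 1 := by
        have h3 : (((t⁻¹ * t : SU 4 F 2) : Matrix.SpecialLinearGroup (Fin 4) F) :
            Matrix (Fin 4) (Fin 4) F) = 1 := by
          rw [inv_mul_cancel]; rfl
        exact h3
      rw [h2, Matrix.one_mul]
    rw [hz2] at htr
    have h4 : (((d ^ 2 : SU 4 F 2) : Matrix.SpecialLinearGroup (Fin 4) F) : Matrix (Fin 4) (Fin 4) F)
        = Matrix.diagonal (a ^ 2) := by
      change ((Matrix.diagonal a) ^ 2 : Matrix (Fin 4) (Fin 4) F) = _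
      rw [Matrix.diagonal_pow]
    rw [h4, Matrix.trace_diagonal, Matrix.trace_diagonal] at htr
    simp only [ha, Fin.sum_univ_four, Pi.pow_apply, Matrix.cons_val_zero, Matrix.cons_val_one,
      Matrix.cons_val] at htr
    -- 3 w^2 + 1 = 3 w + 1
    have h5 : w ^ 2 = w := by linear_combination htr + (w - w ^ 2) * h2'
    have h6 : w * (w - 1) = 0 := by linear_combination h5
    rcases mul_eq_zero.1 h6 with h | h
    · exact hw0 h
    · exact hw1 (sub_eq_zero.1 h)

end unitary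

/-- **`Suz` has a non-real element.** -/
theorem nrel_suz {G : Type*} [Group G] (h : Spor.IsoSuz G) : NRel G := by
  classical
  obtain ⟨A, hA, hn, X, iX, fX, hX, hs, hnc, z, hz, Q, hQn, hF, hQ, hc, ⟨e⟩, g, ⟨hq, hgQ⟩, hne⟩ :=
    Cfsg.Agent.S5389.result
  have hXS : Spor.IsoSuz X := Cfsg.Agent.S1719.result z hz Q hF hQ hc e ⟨g, ⟨hq, hgQ⟩, hne⟩
  obtain ⟨e1⟩ := h
  obtain ⟨e2⟩ := hXS
  refine NRel.congr (e2.trans e1.symm) ?_
  -- the field with four elements
  haveI : Fact (Nat.Prime 2) := ⟨Nat.prime_two⟩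
  haveI : Fintype (GaloisField 2 2) := Fintype.ofFinite _
  have hK : Fintype.card (GaloisField 2 2) = 2 ^ 2 := by
    rw [← Nat.card_eq_fintype_card]
    exact GaloisField.card 2 2 (by norm_num)
  obtain ⟨e3⟩ := Cfsg.Agent.S0303.result (F := ZMod 2) (K := GaloisField 2 2) (q := 2) (ZMod.card 2) hK 1 1
    Cfsg.Agent.LargeExtra.Cards.aniso
  let f0 : ↥(Subgroup.centralizer ({z} : Set X)) →* Omega (ZMod 2) (quadFormMinus 2 (ZMod 2) 1 1) :=
    e.toMonoidHom.comp (QuotientGroup.mk' Q)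
  have hf0 : Function.Surjective f0 := e.surjective.comp (QuotientGroup.mk'_surjective Q)
  let f1 : ↥(Subgroup.centralizer ({z} : Set X)) →* POmega (ZMod 2) (quadFormMinus 2 (ZMod 2) 1 1) :=
    (QuotientGroup.mk' _).comp f0
  have hf1 : Function.Surjective f1 := (QuotientGroup.mk'_surjective _).comp hf0
  let f : ↥(Subgroup.centralizer ({z} : Set X)) →* PSU 4 (GaloisField 2 2) 2 := e3.toMonoidHom.comp f1
  have hf : Function.Surjective f := e3.surjective.comp hf1
  obtain ⟨g0, hg3, hg0⟩ := nreal_u4 (F := GaloisField 2 2) hK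
  obtain ⟨x, hx⟩ := hf g0
  obtain ⟨y, hy1, hy2⟩ := exists_odd_lift f x (by
    rw [hx]
    exact Odd.of_dvd_nat (by decide : Odd 3) (orderOf_dvd_of_pow_eq_one hg3))
  have hzz : z * z = 1 := by rw [← pow_two, ← hz, pow_orderOf_eq_one]
  refine nrel_of_centralizer_odd hzz f y hy1 ?_ (by rw [hy2, hx]; exact hg0)
  intro hzc
  have h1 : f0 ⟨z, hzc⟩ ∈ Subgroup.center (Omega (ZMod 2) (quadFormMinus 2 (ZMod 2) 1 1)) := by
    rw [Subgroup.mem_center_iff]
    intro u
    obtain ⟨v, rfl⟩ := hf0 u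
    rw [← map_mul, ← map_mul]
    congr 1
    apply Subtype.ext
    exact Subgroup.mem_centralizer_singleton_iff.1 v.2
  have h2 : f1 ⟨z, hzc⟩ = 1 := (QuotientGroup.eq_one_iff _).2 h1
  show e3 (f1 ⟨z, hzc⟩) = 1
  rw [h2, map_one]

end Cfsg.Agent.H291.SR.Suz
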